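import Cfsg.Agent.H824.Fs.FixPt
import Cfsg.Agent.H335.TC6.Def

/-!
# S2464, `F₄(2)`: `fix23` in the form of helper335 (helper824)
-/

set_option autoImplicit false

namespace Cfsg.Agent.H824.TC6

open Cfsg.Agent.FourTwo.Par Cfsg.Agent.FourTwo.Cent Cfsg.Agent.FourTwo.Base

/-- the words whose Levi part fixes a vector (`tw` of helper903 and of helper335 agree definitionally) -/
theorem fix23 {w : List ℕ} (hw : w ∈ Cfsg.Agent.H612.Ore.rws) (h0 : w ≠ []) (hn : w ∉ Cfsg.Agent.H335.TC6.NF) {q : LL}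
    (hq : q ∈ RG Cfsg.Agent.FourTwo.Facts2.qsP) :
    ∃ y : LL, y * (wd (w.flatMap Cfsg.Agent.H903.Pw.Rho.tw) * q) * y⁻¹ ∈ Pl ∧
      y * (wd (w.flatMap Cfsg.Agent.H903.Pw.Rho.tw) * q) * y⁻¹ ∉ RG Cfsg.Agent.H434.FF.ql :=
  Cfsg.Agent.H824.Fs.FixPt.fix_pt hw h0 hn hq

end Cfsg.Agent.H824.TC6
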